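import Cfsg.Agent.Lib.H04.Tw.Enum
import Cfsg.Agent.Lib.H04.Tw.Tab.D4_g

/-! Generated: the elements of the fixed Weyl group of type D4. -/

set_option autoImplicit false
set_option maxRecDepth 100000
set_option Elab.async false

open Cfsg.Lie Cfsg.Agent.H04.Chev
open Cfsg.Agent.H04.Chev.TD4

namespace Cfsg.Agent.H04.Tw.TD4

/-- the number of elements -/
def E : ℕ := 12
/-- the elements -/
noncomputable def Q : NT := NT.nd (NT.nd (NT.nd (NT.nd (NT.lf 0x17161514131211100f0e0d0c0b0a09080706050403020100) (NT.lf 0x8090008071206040d0c1603021514010b0a131105100f170e)) (NT.nd (NT.lf 0x416090c0d11041214151707080f100002030513060a0b0e01) (NT.lf 0x0))) (NT.nd (NT.nd (NT.lf 0x3170e0f101105131415160a0b0c0d01020304120607080900) (NT.lf 0xb010002030504060a0b0e07080f10090c0d11131214151716)) (NT.nd (NT.lf 0x70e010b0a130605100f17030215140008071211040d0c1609) (NT.lf 0x0)))) (NT.nd (NT.nd (NT.nd (NT.lf 0x1161715141213110d0c09100f08070e0b0a06040503020001) (NT.lf 0x9000908070612040302010d0c0b0a161514130511100f0e17))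 (NT.nd (NT.lf 0x509160c0d04111207080014150203170f100506130a0b010e) (NT.lf 0x0))) (NT.nd (NT.nd (NT.lf 0x40e170f100511130a0b0114150203160c0d04061207080009) (NT.lf 0xc000102030405060708090a0b0c0d0e0f1011121314151617)) (NT.nd (NT.lf 0x8010e0b0a061305030200100f08071715141204110d0c0916) (NT.lf 0x0))))
/-- the generators -/
noncomputable def P : NT := NT.nd (NT.lf 0x161715141213110d0c09100f08070e0b0a06040503020001) (NT.lf 0x170e0f101105131415160a0b0c0d01020304120607080900)
/-- the left multiplications -/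
noncomputable def Mt : NT := NT.nd (NT.nd (NT.nd (NT.nd (NT.lf 0x20001) (NT.lf 0xa0006)) (NT.nd (NT.lf 0x60002) (NT.lf 0x0))) (NT.nd (NT.nd (NT.lf 0x4) (NT.lf 0x8000b)) (NT.nd (NT.lf 0x40008) (NT.lf 0x0)))) (NT.nd (NT.nd (NT.nd (NT.lf 0x30000) (NT.lf 0xb0007)) (NT.nd (NT.lf 0x70003) (NT.lf 0x0))) (NT.nd (NT.nd (NT.lf 0x10005) (NT.lf 0x9000a)) (NT.nd (NT.lf 0x50009) (NT.lf 0x0))))
/-- the descents -/
noncomputable def Pj : NT := NT.nd (NT.nd (NT.nd (NT.nd (NT.lf 0x0) (NT.lf 0x0)) (NT.nd (NT.lf 0x0) (NT.lf 0x0))) (NT.nd (NT.nd (NT.lf 0x1) (NT.lf 0x1)) (NT.nd (NT.lf 0x1) (NT.lf 0x0)))) (NT.nd (NT.nd (NT.nd (NT.lf 0x0) (NT.lf 0x0)) (NT.nd (NT.lf 0x0) (NT.lf 0x0))) (NT.nd (NT.nd (NT.lf 0x1) (NT.lf 0x0)) (NT.nd (NT.lf 0x1) (NT.lf 0x0))))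
/-- the generating function -/
def H : List ℕ := [1, 1, 0, 1, 2, 1, 0, 1, 2, 1, 0, 1, 1]

theorem r1_0 : segAll 0 12 (weRow chevD4.nroots 2 E Q P Mt) = true := by decide +kernel

theorem r1 : ∀ e, e < E → weRow chevD4.nroots 2 E Q P Mt e = true := by
  intro e he
  have hE : E = 12 := rfl
  rw [hE] at he
  have hc : (0 ≤ e ∧ e < 0 + 12) := by omega
  rcases hc with ⟨h1, h2⟩
  · exact segAll_spec r1_0 e h1 h2

theorem r2 : allRange E (weRow2 chevD4.nroots 2 Q Mt Pj) = true := by decide +kernel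

theorem r3 : allRange (E - 1) (fun e => Nat.blt (Q.get e) (Q.get (e + 1))) = true := by decide +kernel

theorem r0 : allRange chevD4.nroots (fun s => Nat.beq (byteN (Q.get 0) s) s) = true := by decide +kernel

theorem rP : allRange 2 (fun j => allRange chevD4.nroots fun s => Nat.beq (byteN (P.get j) s) (applyW chevD4 T (Js j) s)) = true := by decide +kernel

theorem wE : WE chevD4 T 2 Js E (fun e s => byteN (Q.get e) s) (fun e j => Nat.land (Nat.shiftRight (Mt.get e) (Nat.mul 16 j)) 65535) Pj.get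
      (fun e => Nat.shiftRight (Q.get e) (Nat.mul 8 chevD4.nroots)) := by
  apply WE_of rfl (by decide) (P := P)
  · intro j hj s hs
    exact Nat.eq_of_beq_eq_true (allRange_spec (allRange_spec rP j hj) s hs)
  · intro s hs
    exact Nat.eq_of_beq_eq_true (allRange_spec r0 s hs)
  · exact r1
  · intro e he
    exact allRange_spec r2 e he
  · intro e he
    have h5 : e < E - 1 := by omega
    exact Nat.le_of_ble_eq_true (allRange_spec r3 e h5)

/-- the values of the histogram -/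
theorem hH : allRange 13 (fun k => Nat.beq (histC (fun e => Nat.shiftRight (Q.get e) (Nat.mul 8 chevD4.nroots)) E k) (H.getD k 0)) = true := by decide +kernel

/-- the range of the histogram -/
theorem hH2 : allRange E (fun e => Nat.blt (Nat.shiftRight (Q.get e) (Nat.mul 8 chevD4.nroots)) 13) = true := by decide +kernel

end Cfsg.Agent.H04.Tw.TD4
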